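import Cfsg.Agent.H562.TC.RatQ

/-!
# The multiplicities of the weights of `2 ^ (1 + 24)` (helper562)

`m Q eta ρ v`, `v ∈ Λ / 2Λ`, is the multiplicity of the linear character `v` of `Q`.
* `mults` : degree and value at `z` in terms of the multiplicities at vectors of types 2, 3, 4;
* `mult_zero_le` : `m 0 ≤ (1 / 41 + 1 / 8000) χ(1)`.
-/

set_option autoImplicit false
set_option maxRecDepth 100000

namespace Cfsg.Agent.H562.TC.RatQ

open Module
open Cfsg Cfsg.Agent.MonsterX Cfsg.Agent.MonsterX.InstData Cfsg.Agent.MonsterX.MainPack Cfsg.Agent.MonsterU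
open Cfsg.Agent.MonsterP Cfsg.Agent.MonsterN Cfsg.Agent.LThreeMB
open Cfsg.Agent.MonsterX.MainBasic Cfsg.Agent.MonsterX.MainSimple Cfsg.Agent.MonsterX.Model
open Cfsg.Agent.BpSpor.MBigModel
open Cfsg.Agent.LThreeB.Row (TA)
open Cfsg.Spor (Co1)
open Cfsg.Agent.MonsterU.Lam2 Cfsg.Agent.MonsterU.TwoCls
open Subgroup (centralizer zpowers mem_centralizer_singleton_iff)
open Cfsg.Agent.Characters.Core
open Cfsg.Agent.H847.Avg Cfsg.Agent.H847.QTrace Cfsg.Agent.H847.QDeg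
open Cfsg.Agent.H847.Co1Small (sg sg_zero sg_one sg_add sg_sq zcases)
open Cfsg.Agent.MonsterU.Ch
open Cfsg.Agent.ConwayFacts.NormL2 (ncard_two ncard_three ncard_four isType_f0 ne_zero_of_type)
open Cfsg.Agent.H562.OreM.QVal
open Cfsg.Agent.H606.OreM (exists_four exists_two ta_isConj ta_of_isConj zbound)

attribute [local instance] Cfsg.Agent.H847.QTrace.fintypeL2

section

variable {G : Type*} [Group G] {Q : Subgroup G} {z : G} {eta : G → L2}
  {pi : Subgroup.centralizer ({z} : Set G) →* Co1}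
variable {V : Type*} [AddCommGroup V] [Module ℂ V]

/-- **Degree and value at `z`.** -/
theorem mults [Fintype Q] [FiniteDimensional ℂ V] (h : Chart Q z eta pi) (ρ : G →* (V →ₗ[ℂ] V))
    (hconj : ∃ y4 ∈ Q, IsType 4 (eta y4) ∧ ∃ g, g * z * g⁻¹ = y4) {x2 x3 x4 : L2} (h2 : IsType 2 x2)
    (h3 : IsType 3 x3) (h4 : IsType 4 x4) :
    finrank ℂ V = m Q eta ρ 0 + 196584 * m Q eta ρ x2 + 16775168 * m Q eta ρ x3 + 16582679 * m Q eta ρ x4 ∧
      LinearMap.trace ℂ V (ρ z) = (((m Q eta ρ 0 : ℤ) - 24 * m Q eta ρ x2 - 2048 * m Q eta ρ x3 +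
        2071 * m Q eta ρ x4 : ℤ) : ℂ) := by
  have hfin := h.fin
  obtain ⟨y4, h4Q, h4', hc⟩ := hconj
  have t4 : LinearMap.trace ℂ V (ρ y4) = LinearMap.trace ℂ V (ρ z) := by
    obtain ⟨g, rfl⟩ := hc
    exact trace_conj ρ g z
  have n4 : eta y4 ≠ 0 := ne_zero_of_type (Or.inr rfl) h4'
  have e0 := sum_m h ρ Q.one_mem
  have e4 := sum_m h ρ h4Q
  rw [trace_z h h4Q n4, t4, sum_mult h ρ h2 h3 h4, S_two_of_four h4', S_three_of_four h4', S_four_of_four h4'] at e4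
  have s0 : ∀ n, S n 0 = ((Tn n).card : ℂ) := fun n => by
    unfold S
    rw [sum_const n (c := 1) (fun v _ => by rw [bf_zero_right, sg_zero]), mul_one]
  rw [h.eta_one, one_mul, map_one, LinearMap.trace_one, sum_mult h ρ h2 h3 h4, s0, s0, s0, card_two, card_three,
    card_four] at e0
  constructor
  · have : ((finrank ℂ V : ℕ) : ℂ) = ((m Q eta ρ 0 + 196584 * m Q eta ρ x2 + 16775168 * m Q eta ρ x3 +
        16582679 * m Q eta ρ x4 : ℕ) : ℂ) := by
      push_cast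
      linear_combination (-2 : ℂ) * e0 + (1 : ℂ) * e4
    exact_mod_cast this
  · push_cast
    linear_combination (-1 : ℂ) * e4

end

/-- **The fixed space of `Q`.** -/
theorem mult_zero_le (hC : ∀ x : MG, orderOf x = 41 → Nat.card (centralizer ({x} : Set MG)) = 41)
    [Fintype ↥(KDone.K.ι.range : Subgroup MG)] (χ : IrrCharacter MG) {V : Type*} [AddCommGroup V] [Module ℂ V]
    [FiniteDimensional ℂ V] (ρ : MG →* (V →ₗ[ℂ] V)) (hρ : ∀ g, LinearMap.trace ℂ V (ρ g) = (χ : MG → ℂ) g)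
    (hdim : finrank ℂ V = charDegree (χ : MG → ℂ)) (hbig : 2000000 ≤ charDegree (χ : MG → ℂ)) :
    8000 * 41 * m (KDone.K.ι.range : Subgroup MG) (KChart.eta KDone.lft) ρ 0 ≤ 8041 * charDegree (χ : MG → ℂ) := by
  obtain ⟨y2, h2Q, h2, -⟩ := exists_two
  obtain ⟨y4, h4Q, h4, hc4⟩ := exists_four
  obtain ⟨y3, h3Q, h3⟩ := exists_three_Q
  obtain ⟨k1, k2⟩ := mults chart ρ ⟨y4, h4Q, h4, hc4⟩ h2 h3 h4
  rw [hρ] at k2
  have hz := zbound hC χ k2
  have h1 : 41 * ((m (KDone.K.ι.range : Subgroup MG) (KChart.eta KDone.lft) ρ 0 : ℤ) -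
      24 * m (KDone.K.ι.range : Subgroup MG) (KChart.eta KDone.lft) ρ (KChart.eta KDone.lft y2) -
      2048 * m (KDone.K.ι.range : Subgroup MG) (KChart.eta KDone.lft) ρ (KChart.eta KDone.lft y3) +
      2071 * m (KDone.K.ι.range : Subgroup MG) (KChart.eta KDone.lft) ρ (KChart.eta KDone.lft y4)) ≤
      (charDegree (χ : MG → ℂ) : ℤ) + 257 := (mul_le_mul_of_nonneg_left (le_abs_self _) (by norm_num)).trans hz
  clear hz k2
  rw [hdim] at k1
  generalize m (KDone.K.ι.range : Subgroup MG) (KChart.eta KDone.lft) ρ 0 = a at k1 h1 ⊢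
  generalize m (KDone.K.ι.range : Subgroup MG) (KChart.eta KDone.lft) ρ (KChart.eta KDone.lft y2) = b at k1 h1
  generalize m (KDone.K.ι.range : Subgroup MG) (KChart.eta KDone.lft) ρ (KChart.eta KDone.lft y3) = c at k1 h1
  generalize m (KDone.K.ι.range : Subgroup MG) (KChart.eta KDone.lft) ρ (KChart.eta KDone.lft y4) = e at k1 h1
  generalize charDegree (χ : MG → ℂ) = d at k1 h1 hbig ⊢
  zify at k1 hbig ⊢
  have ha : (0 : ℤ) ≤ a := Int.natCast_nonneg a
  have hb : (0 : ℤ) ≤ b := Int.natCast_nonneg b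
  have hc : (0 : ℤ) ≤ c := Int.natCast_nonneg c
  have he : (0 : ℤ) ≤ e := Int.natCast_nonneg e
  linarith

end Cfsg.Agent.H562.TC.RatQ
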