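import Cfsg.Agent.H606.OreM.ZB

/-!
# Character ratios of the Monster on `2 ^ (1 + 24)` (helper562)

`χ` irreducible of degree `d ≥ 4962352590`:
* `rat_zz` : `-d/8000 ≤ χ(z) ≤ 0.0245 d`;
* `rat_ta` : `-d/8000 ≤ χ(t) ≤ 0.0448 d`, `t` of the class `2A`;
* `rat_three` : `-d/8000 ≤ χ(y) ≤ 0.0247 d`, `y ∈ Q` of type 3 (class `4A`);
* `rat_Q` : `-d/400 ≤ Re χ(x) ≤ d/21` for `1 ≠ x ∈ Q`; `isConj_inv` : `x` is conjugate to `x⁻¹`.
-/

set_option autoImplicit false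
set_option maxRecDepth 100000

namespace Cfsg.Agent.H562.TC.RatQ

open Module
open Cfsg Cfsg.Agent.MonsterX Cfsg.Agent.MonsterX.InstData Cfsg.Agent.MonsterX.MainPack Cfsg.Agent.MonsterU
open Cfsg.Agent.MonsterP Cfsg.Agent.MonsterN Cfsg.Agent.LThreeMB
open Cfsg.Agent.MonsterX.MainBasic Cfsg.Agent.MonsterX.MainSimple Cfsg.Agent.MonsterX.Model
open Cfsg.Agent.BpSpor.MBigModel
open Cfsg.Agent.LThreeB.Row (TA)
open Cfsg.Spor (Co1)
open Cfsg.Agent.MonsterU.Lam2 Cfsg.Agent.MonsterU.TwoCls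
open Subgroup (centralizer zpowers mem_centralizer_singleton_iff)
open Cfsg.Agent.Characters.Core
open Cfsg.Agent.H847.Avg Cfsg.Agent.H847.QTrace Cfsg.Agent.H847.QDeg
open Cfsg.Agent.H847.Co1Small (sg sg_zero sg_one sg_add sg_sq zcases)
open Cfsg.Agent.MonsterU.Ch
open Cfsg.Agent.ConwayFacts.NormL2 (ncard_two ncard_three ncard_four isType_f0 ne_zero_of_type)
open Cfsg.Agent.H562.OreM.QVal
open Cfsg.Agent.H606.OreM (exists_four exists_two ta_isConj ta_of_isConj zbound)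

attribute [local instance] Cfsg.Agent.H847.QTrace.fintypeL2

/-! ### type 3 -/

theorem qf_three {x : L2} (hx : IsType 3 x) : qf x = 1 := by
  rw [qf_of_type hx]; rfl

theorem ne_zero_three {x : L2} (hx : IsType 3 x) : x ≠ 0 := by
  rintro rfl
  exact not_zero (Or.inr (Or.inl rfl)) hx

theorem S_three_of_three {x : L2} (hx : IsType 3 x) : S 3 x = 2048 := by
  have h := gauss_shift x
  rw [sum_univ, bf_zero_left, qf_zero, add_zero, qf_three hx, sg_zero, sg_one] at h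
  have h2 : ∑ v ∈ Tn 2, sg (qf v + bf v x) = S 2 x := Finset.sum_congr rfl fun v hv => by
    rw [sg_add, qf_of_type (mem_Tn.1 hv)]
    rw [show ((2 : ℤ) : ZMod 2) = 0 from rfl, sg_zero, one_mul]
  have h3 : ∑ v ∈ Tn 3, sg (qf v + bf v x) = -S 3 x := by
    unfold S
    rw [← Finset.sum_neg_distrib]
    refine Finset.sum_congr rfl fun v hv => ?_
    rw [sg_add, qf_of_type (mem_Tn.1 hv)]
    rw [show ((3 : ℤ) : ZMod 2) = 1 from rfl, sg_one, neg_one_mul]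
  have h4 : ∑ v ∈ Tn 4, sg (qf v + bf v x) = S 4 x := Finset.sum_congr rfl fun v hv => by
    rw [sg_add, qf_of_type (mem_Tn.1 hv)]
    rw [show ((4 : ℤ) : ZMod 2) = 0 from rfl, sg_zero, one_mul]
  rw [h2, h3, h4] at h
  have h5 := S_sum (ne_zero_three hx)
  linear_combination (1 / 2 : ℂ) * h5 - (1 / 2 : ℂ) * h

theorem S_two_of_three {x : L2} (hx : IsType 3 x) : S 2 x = -24 := by
  have h1 : ∑ v ∈ Tn 3, S 2 v = ∑ w ∈ Tn 2, S 3 w := by
    unfold S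
    rw [Finset.sum_comm]
    exact Finset.sum_congr rfl fun w _ => Finset.sum_congr rfl fun v _ => by rw [bf_comm]
  rw [sum_const 3 (f := S 2) (c := S 2 x) (fun v hv => S_eq 2 (Or.inr (Or.inl rfl)) hx hv),
    sum_const 2 (f := S 3) (c := -2048) (fun v hv => S_three_of_two hv), card_two, card_three] at h1
  linear_combination (1 / 8386560 : ℂ) * h1

theorem S_four_of_three {x : L2} (hx : IsType 3 x) : S 4 x = -2025 := by
  have h := S_sum (ne_zero_three hx)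
  rw [S_two_of_three hx, S_three_of_three hx] at h
  linear_combination h

section

variable {G : Type*} [Group G] {Q : Subgroup G} {z : G} {eta : G → L2}
  {pi : Subgroup.centralizer ({z} : Set G) →* Co1}
variable {V : Type*} [AddCommGroup V] [Module ℂ V]

/-- **The values of a representation at `1`, `2A`, `2B`, `4A`.** -/
theorem values4 [FiniteDimensional ℂ V] (h : Chart Q z eta pi) (ρ : G →* (V →ₗ[ℂ] V))
    {y4 : G} (h4Q : y4 ∈ Q) (h4 : IsType 4 (eta y4)) (hconj : ∃ g, g * z * g⁻¹ = y4)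
    {y2 : G} (h2Q : y2 ∈ Q) (h2 : IsType 2 (eta y2)) {y3 : G} (h3Q : y3 ∈ Q) (h3 : IsType 3 (eta y3)) :
    ∃ a b c e : ℕ, finrank ℂ V = a + 196584 * b + 16775168 * c + 16582679 * e ∧
      LinearMap.trace ℂ V (ρ y2) = (((a : ℤ) + 4072 * b - 2048 * c - 2025 * e : ℤ) : ℂ) ∧
      LinearMap.trace ℂ V (ρ z) = (((a : ℤ) - 24 * b - 2048 * c + 2071 * e : ℤ) : ℂ) ∧
      LinearMap.trace ℂ V (ρ y3) = (((a : ℤ) - 24 * b + 2048 * c - 2025 * e : ℤ) : ℂ) := by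
  have hfin := h.fin
  have : Fintype Q := Fintype.ofFinite Q
  have t4 : LinearMap.trace ℂ V (ρ y4) = LinearMap.trace ℂ V (ρ z) := by
    obtain ⟨g, rfl⟩ := hconj
    exact trace_conj ρ g z
  have n4 : eta y4 ≠ 0 := ne_zero_of_type (Or.inr rfl) h4
  have n2 : eta y2 ≠ 0 := ne_zero_of_type (Or.inl rfl) h2
  have n3 : eta y3 ≠ 0 := ne_zero_three h3
  have e0 := sum_m h ρ Q.one_mem
  have e4 := sum_m h ρ h4Q
  have e2 := sum_m h ρ h2Q
  have e3 := sum_m h ρ h3Q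
  rw [trace_z h h4Q n4, t4, sum_mult h ρ h2 h3 h4, S_two_of_four h4, S_three_of_four h4, S_four_of_four h4] at e4
  rw [trace_z h h2Q n2, sum_mult h ρ h2 h3 h4, S_two_of_two h2, S_three_of_two h2, S_four_of_two h2] at e2
  rw [trace_z h h3Q n3, sum_mult h ρ h2 h3 h4, S_two_of_three h3, S_three_of_three h3, S_four_of_three h3] at e3
  have s0 : ∀ n, S n 0 = ((Tn n).card : ℂ) := fun n => by
    unfold S
    rw [sum_const n (c := 1) (fun v _ => by rw [bf_zero_right, sg_zero]), mul_one]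
  rw [h.eta_one, one_mul, map_one, LinearMap.trace_one, sum_mult h ρ h2 h3 h4, s0, s0, s0, card_two, card_three,
    card_four] at e0
  refine ⟨m Q eta ρ 0, m Q eta ρ (eta y2), m Q eta ρ (eta y3), m Q eta ρ (eta y4), ?_, ?_, ?_, ?_⟩
  · have : ((finrank ℂ V : ℕ) : ℂ) = ((m Q eta ρ 0 + 196584 * m Q eta ρ (eta y2) + 16775168 * m Q eta ρ (eta y3) +
        16582679 * m Q eta ρ (eta y4) : ℕ) : ℂ) := by
      push_cast
      linear_combination (-2 : ℂ) * e0 + (1 : ℂ) * e4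
    exact_mod_cast this
  · push_cast
    linear_combination (-1 : ℂ) * e2
  · push_cast
    linear_combination (-1 : ℂ) * e4
  · push_cast
    linear_combination (-1 : ℂ) * e3

end

/-! ### the Monster -/

/-- the subgroup `2 ^ (1 + 24)` -/
local notation "QQ" => (KDone.K.ι.range : Subgroup MG)

/-- elements of type 2 -/
theorem ta_of_type {y : MG} (hy : y ∈ QQ) (h : IsType 2 (KChart.eta KDone.lft y)) : TA y := by
  obtain ⟨p, rfl⟩ := hy
  rw [KChart.eta_ι] at h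
  exact ta_iota h

/-- elements of type 4 -/
theorem isConj_of_four {y : MG} (hy : y ∈ QQ) (h : IsType 4 (KChart.eta KDone.lft y)) : IsConj zz y :=
  ((H819.Base.type_four_iff chart Cfsg.Agent.H819.ParLift.fused hy).1 h).1

/-- **The values.** -/
theorem values (χ : IrrCharacter MG) {y3 : MG} (h3Q : y3 ∈ QQ) (h3 : IsType 3 (KChart.eta KDone.lft y3)) :
    ∃ a b c e : ℕ, charDegree (χ : MG → ℂ) = a + 196584 * b + 16775168 * c + 16582679 * e ∧
      (∀ t : MG, TA t → (χ : MG → ℂ) t = (((a : ℤ) + 4072 * b - 2048 * c - 2025 * e : ℤ) : ℂ)) ∧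
      (χ : MG → ℂ) zz = (((a : ℤ) - 24 * b - 2048 * c + 2071 * e : ℤ) : ℂ) ∧
      (χ : MG → ℂ) y3 = (((a : ℤ) - 24 * b + 2048 * c - 2025 * e : ℤ) : ℂ) := by
  obtain ⟨n, ρ, hρ, hρχ⟩ := id χ.2
  obtain ⟨y4, h4Q, h4, hc4⟩ := exists_four
  obtain ⟨y2, h2Q, h2, hta⟩ := exists_two
  obtain ⟨a, b, c, e, h1, h3', h5, h6⟩ := values4 chart ρ h4Q h4 hc4 h2Q h2 h3Q h3
  have hch : ∀ g : MG, (χ : MG → ℂ) g = LinearMap.trace ℂ (Fin n → ℂ) (ρ g) := by
    intro g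
    rw [← hρχ]
    rfl
  have hdeg : charDegree (χ : MG → ℂ) = n := by
    unfold charDegree
    rw [← hρχ]
    simp
  refine ⟨a, b, c, e, ?_, ?_, ?_, ?_⟩
  · rw [hdeg, ← h1, Module.finrank_fin_fun]
  · intro t ht
    obtain ⟨g, hg⟩ := isConj_iff.1 (ta_isConj hta ht)
    rw [← hg, isIrr_isClassFunction χ.2, hch, h3']
  · rw [hch, h5]
  · rw [hch, h6]

theorem exists_three_Q : ∃ y ∈ QQ, IsType 3 (KChart.eta KDone.lft y) := by
  obtain ⟨x, hx⟩ : {x : L2 | IsType 3 x}.Nonempty := Set.nonempty_of_ncard_ne_zero (by have := ncard_three; omega)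
  obtain ⟨y, hy, rfl⟩ := chart.eta_surj x
  exact ⟨y, hy, hx⟩

/-- the inequalities -/
theorem nums {d a b c e : ℕ} {v : ℤ} (hd : d = a + 196584 * b + 16775168 * c + 16582679 * e)
    (hv : v = (a : ℤ) - 24 * b - 2048 * c + 2071 * e) (hz : 41 * |v| ≤ (d : ℤ) + 257) (hbig : 4962352590 ≤ d) :
    (-(d : ℤ) ≤ 8000 * v ∧ 2000 * v ≤ 49 * d) ∧
    (-(d : ℤ) ≤ 8000 * ((a : ℤ) + 4072 * b - 2048 * c - 2025 * e) ∧
      1250 * ((a : ℤ) + 4072 * b - 2048 * c - 2025 * e) ≤ 56 * d) ∧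
    (-(d : ℤ) ≤ 8000 * ((a : ℤ) - 24 * b + 2048 * c - 2025 * e) ∧
      10000 * ((a : ℤ) - 24 * b + 2048 * c - 2025 * e) ≤ 247 * d) := by
  have h1 : 41 * v ≤ (d : ℤ) + 257 := (mul_le_mul_of_nonneg_left (le_abs_self v) (by norm_num)).trans hz
  clear hz
  subst hv
  subst hd
  push_cast at h1 ⊢
  have ha : (0 : ℤ) ≤ a := Int.natCast_nonneg a
  have hb : (0 : ℤ) ≤ b := Int.natCast_nonneg b
  have hc : (0 : ℤ) ≤ c := Int.natCast_nonneg c
  have he : (0 : ℤ) ≤ e := Int.natCast_nonneg e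
  have hB : (4962352590 : ℤ) ≤ a + 196584 * b + 16775168 * c + 16582679 * e := by exact_mod_cast hbig
  refine ⟨⟨?_, ?_⟩, ⟨?_, ?_⟩, ⟨?_, ?_⟩⟩ <;> linarith

section bounds

variable (hC : ∀ x : MG, orderOf x = 41 → Nat.card (centralizer ({x} : Set MG)) = 41)

include hC

/-- **The bounds.** -/
theorem bounds (χ : IrrCharacter MG) (hbig : 4962352590 ≤ charDegree (χ : MG → ℂ)) {y3 : MG} (h3Q : y3 ∈ QQ)
    (h3 : IsType 3 (KChart.eta KDone.lft y3)) :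
    (-(charDegree (χ : MG → ℂ) : ℝ) ≤ 8000 * ((χ : MG → ℂ) zz).re ∧
      2000 * ((χ : MG → ℂ) zz).re ≤ 49 * (charDegree (χ : MG → ℂ) : ℝ)) ∧
    (∀ t : MG, TA t → -(charDegree (χ : MG → ℂ) : ℝ) ≤ 8000 * ((χ : MG → ℂ) t).re ∧
      1250 * ((χ : MG → ℂ) t).re ≤ 56 * (charDegree (χ : MG → ℂ) : ℝ)) ∧
    (-(charDegree (χ : MG → ℂ) : ℝ) ≤ 8000 * ((χ : MG → ℂ) y3).re ∧
      10000 * ((χ : MG → ℂ) y3).re ≤ 247 * (charDegree (χ : MG → ℂ) : ℝ)) := by
  obtain ⟨a, b, c, e, hd, h2, hz, h3v⟩ := values χ h3Q h3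
  have hzb := zbound hC χ hz
  obtain ⟨⟨k1, k2⟩, ⟨k3, k4⟩, ⟨k5, k6⟩⟩ := nums hd rfl hzb hbig
  refine ⟨⟨?_, ?_⟩, fun t ht => ⟨?_, ?_⟩, ⟨?_, ?_⟩⟩
  · rw [hz, Complex.intCast_re]
    exact_mod_cast k1
  · rw [hz, Complex.intCast_re]
    exact_mod_cast k2
  · rw [h2 t ht, Complex.intCast_re]
    exact_mod_cast k3
  · rw [h2 t ht, Complex.intCast_re]
    exact_mod_cast k4
  · rw [h3v, Complex.intCast_re]
    exact_mod_cast k5
  · rw [h3v, Complex.intCast_re]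
    exact_mod_cast k6

/-- **2B** -/
theorem rat_zz (χ : IrrCharacter MG) (hbig : 4962352590 ≤ charDegree (χ : MG → ℂ)) :
    -(1 / 8000 * (charDegree (χ : MG → ℂ) : ℝ)) ≤ ((χ : MG → ℂ) zz).re ∧
      ((χ : MG → ℂ) zz).re ≤ 49 / 2000 * (charDegree (χ : MG → ℂ) : ℝ) := by
  obtain ⟨y, hy, h3⟩ := exists_three_Q
  obtain ⟨⟨k1, k2⟩, -, -⟩ := bounds hC χ hbig hy h3
  constructor <;> linarith

/-- **2A** -/
theorem rat_ta (χ : IrrCharacter MG) (hbig : 4962352590 ≤ charDegree (χ : MG → ℂ)) {t : MG} (ht : TA t) :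
    -(1 / 8000 * (charDegree (χ : MG → ℂ) : ℝ)) ≤ ((χ : MG → ℂ) t).re ∧
      ((χ : MG → ℂ) t).re ≤ 56 / 1250 * (charDegree (χ : MG → ℂ) : ℝ) := by
  obtain ⟨y, hy, h3⟩ := exists_three_Q
  obtain ⟨-, k, -⟩ := bounds hC χ hbig hy h3
  obtain ⟨k1, k2⟩ := k t ht
  constructor <;> linarith

/-- **4A** -/
theorem rat_three (χ : IrrCharacter MG) (hbig : 4962352590 ≤ charDegree (χ : MG → ℂ)) {y : MG} (hy : y ∈ QQ)
    (h3 : IsType 3 (KChart.eta KDone.lft y)) :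
    -(1 / 8000 * (charDegree (χ : MG → ℂ) : ℝ)) ≤ ((χ : MG → ℂ) y).re ∧
      ((χ : MG → ℂ) y).re ≤ 247 / 10000 * (charDegree (χ : MG → ℂ) : ℝ) := by
  obtain ⟨-, -, k1, k2⟩ := bounds hC χ hbig hy h3
  constructor <;> linarith

/-- the elements of `Q` which are conjugate to `z` -/
theorem rat_four (χ : IrrCharacter MG) (hbig : 4962352590 ≤ charDegree (χ : MG → ℂ)) {y : MG} (hy : IsConj zz y) :
    -(1 / 8000 * (charDegree (χ : MG → ℂ) : ℝ)) ≤ ((χ : MG → ℂ) y).re ∧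
      ((χ : MG → ℂ) y).re ≤ 49 / 2000 * (charDegree (χ : MG → ℂ) : ℝ) := by
  obtain ⟨g, hg⟩ := isConj_iff.1 hy
  rw [← hg, isIrr_isClassFunction χ.2]
  exact rat_zz hC χ hbig

/-- **The elements of `Q`.** -/
theorem rat_Q (χ : IrrCharacter MG) (hbig : 4962352590 ≤ charDegree (χ : MG → ℂ)) {x : MG} (hx : x ∈ QQ)
    (hx1 : x ≠ 1) :
    -(1 / 400 * (charDegree (χ : MG → ℂ) : ℝ)) ≤ ((χ : MG → ℂ) x).re ∧
      ((χ : MG → ℂ) x).re ≤ 1 / 21 * (charDegree (χ : MG → ℂ) : ℝ) := by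
  have hd : (0 : ℝ) ≤ (charDegree (χ : MG → ℂ) : ℝ) := Nat.cast_nonneg _
  rcases type_cases (KChart.eta KDone.lft x) with h | h | h | h
  · rcases (chart.eta_zero x hx).1 h with h1 | h1
    · exact (hx1 h1).elim
    · rw [h1]
      obtain ⟨k1, k2⟩ := rat_zz hC χ hbig
      constructor <;> linarith
  · obtain ⟨k1, k2⟩ := rat_ta hC χ hbig (ta_of_type hx h)
    constructor <;> linarith
  · obtain ⟨k1, k2⟩ := rat_three hC χ hbig hx h
    constructor <;> linarith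
  · obtain ⟨k1, k2⟩ := rat_four hC χ hbig (isConj_of_four hx h)
    constructor <;> linarith

end bounds

/-- the elements of `Q` are real -/
theorem isConj_inv {x : MG} (hx : x ∈ QQ) : IsConj x x⁻¹ := by
  by_cases h0 : KChart.eta KDone.lft x = 0
  · rcases (chart.eta_zero x hx).1 h0 with h1 | h1
    · rw [h1, inv_one]
    · rw [h1, inv_eq_of_mul_eq_one_left zz_sq]
  · have h1 : KChart.eta KDone.lft x⁻¹ = KChart.eta KDone.lft x := chart.eta_inv hx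
    rcases (chart.eta_eq (Subgroup.inv_mem _ hx) hx).1 h1 with h2 | h2
    · rw [h2]
    · obtain ⟨r, -, hr, -⟩ := exists_conj_yz chart hx h0
      rw [h2]
      exact isConj_iff.2 ⟨r, hr⟩

end Cfsg.Agent.H562.TC.RatQ
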